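import Cfsg.Agent.Lib.Lead.ReeAbs.R1156

/-! # [R2358] cyclic subgroups of the same order `d ∣ k_i` are conjugate -/

set_option autoImplicit false

namespace Cfsg.Agent.Lib.Lead.ReeAbs

open Subgroup

universe u v

variable {G : Type u} [Group G] [Finite G] {K : Type v} [Field K] [Fintype K] {m : ℕ} (X : ReeAx G K m)

include X in
/-- [R2358] -/
theorem row2358 (h0 : Tor0 G m) (h1 : Tor1 G m) (h2 : Tor2 G m) (h3 : Tor3 G m) (d : ℕ)
    (hd : d ∣ (3 ^ (2 * m + 1) - 1) / 2 ∨ d ∣ (3 ^ (2 * m + 1) + 1) / 4 ∨ d ∣ 3 ^ (2 * m + 1) - 3 ^ (m + 1) + 1 ∨ d ∣ 3 ^ (2 * m + 1) + 3 ^ (m + 1) + 1)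
    (A B : Subgroup G) (hA : IsCyclic A) (hB : IsCyclic B)
    (hAd : Nat.card A = d) (hBd : Nat.card B = d) :
    ∃ g : G, B = A.map (MulAut.conj g).toMonoidHom := by
  obtain ⟨A0, hA0, -⟩ := h0
  obtain ⟨A1, hA1, -⟩ := h1
  obtain ⟨A2, hA2⟩ := h2
  obtain ⟨A3, hA3⟩ := h3
  rcases hd with h | h | h | h
  · exact hA0.conj_of_card (hallG0 X) h A B hA hB hAd hBd
  · exact hA1.conj_of_card (hallG1 X) h A B hA hB hAd hBd
  · exact hA2.conj_of_card (hallG2 X) h A B hA hB hAd hBd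
  · exact hA3.conj_of_card (hallG3 X) h A B hA hB hAd hBd

end Cfsg.Agent.Lib.Lead.ReeAbs
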