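import Cfsg.Agent.Lib.Lead.ReeAbs.R1156

/-! # [R2359] centralizers of the cyclic subgroups of order `(q-1)/2` and `(q+1)/4` -/

set_option autoImplicit false

namespace Cfsg.Agent.Lib.Lead.ReeAbs

open Subgroup

universe u v

variable {G : Type u} [Group G] [Finite G] {K : Type v} [Field K] [Fintype K] {m : ℕ} (X : ReeAx G K m)

include X in
/-- [R2359] -/
theorem row2359 (h0 : Tor0 G m) (h1 : Tor1 G m) (H : Subgroup G) (hH : IsCyclic H) :
    (Nat.card H = (3 ^ (2 * m + 1) - 1) / 2 →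
      IsCyclic ↥(Subgroup.centralizer (H : Set G)) ∧
        Nat.card ↥(Subgroup.centralizer (H : Set G)) = 3 ^ (2 * m + 1) - 1 ∧
        ∀ A : Subgroup G, A ≤ H → A ≠ ⊥ →
          Subgroup.centralizer (A : Set G) = Subgroup.centralizer (H : Set G)) ∧
    (Nat.card H = (3 ^ (2 * m + 1) + 1) / 4 →
      IsMulCommutative ↥(Subgroup.centralizer (H : Set G)) ∧
        Nat.card ↥(Subgroup.centralizer (H : Set G)) = 3 ^ (2 * m + 1) + 1 ∧
        (∀ x ∈ Subgroup.centralizer (H : Set G), orderOf x ≠ 4) ∧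
        ∀ A : Subgroup G, A ≤ H → A ≠ ⊥ →
          Subgroup.centralizer (A : Set G) = Subgroup.centralizer (H : Set G)) := by
  obtain ⟨A0, hA0, hc0⟩ := h0
  obtain ⟨A1, hA1, hc1⟩ := h1
  constructor
  · intro hcard
    obtain ⟨g, rfl⟩ := hA0.conj_of_card (hallG0 X) (dvd_refl _) A0 H hA0.cyc hH hA0.card hcard
    have hT := hA0.map_conj g
    refine ⟨?_, hT.card_cent, hT.cent_eq⟩
    have e := TL.centralizer_map_cj A0 g
    have e' : centralizer ((A0.map (MulAut.conj g).toMonoidHom : Subgroup G) : Set G) =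
        (centralizer (A0 : Set G)).map (MulAut.conj g).toMonoidHom := e
    rw [e']
    exact ((centralizer (A0 : Set G)).equivMapOfInjective _ (MulAut.conj g).injective).isCyclic.1 hc0
  · intro hcard
    obtain ⟨g, rfl⟩ := hA1.conj_of_card (hallG1 X) (dvd_refl _) A1 H hA1.cyc hH hA1.card hcard
    have hT := hA1.map_conj g
    refine ⟨⟨⟨?_⟩⟩, hT.card_cent, ?_, hT.cent_eq⟩
    · rintro ⟨x, hx⟩ ⟨y, hy⟩
      exact Subtype.ext (hT.comm_cent x hx y hy)
    · intro x hx
      have e' : centralizer ((A1.map (MulAut.conj g).toMonoidHom : Subgroup G) : Set G) =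
          (centralizer (A1 : Set G)).map (MulAut.conj g).toMonoidHom := TL.centralizer_map_cj A1 g
      rw [e'] at hx
      obtain ⟨y, hy, rfl⟩ := hx
      have : orderOf ((MulAut.conj g).toMonoidHom y) = orderOf y := (MulAut.conj g).orderOf_eq y
      rw [this]
      exact hc1 y hy

end Cfsg.Agent.Lib.Lead.ReeAbs
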