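import Cfsg.Agent.Lib.Lead.ReeAbs.Ax
import Cfsg.Agent.Lib.Lead.ReeAbs.Arith
import Cfsg.Agent.Lib.Lead.ReeAbs.P0
import Cfsg.Agent.Lib.Lead.ReeAbs.TorLib
import Cfsg.Agent.Lib.Lead.ReeAbs.P3
import Cfsg.Agent.Lib.Helper22.CoprimeP
import Cfsg.Agent.Lib.Helper1.Fitting
import Cfsg.Agent.S0044

/-! # [R2361] solvable subgroups of a group of Ree type -/

set_option autoImplicit false
set_option linter.style.haveILetI false

namespace Cfsg.Agent.Lib.Lead.ReeAbs

open Subgroup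

universe u v

namespace R2361

variable {G : Type u} [Group G]

theorem le_normalizer_map_subtype {S : Subgroup G} (N : Subgroup S) [hN : N.Normal] :
    S ≤ normalizer ((N.map S.subtype : Subgroup G) : Set G) := by
  intro s hs
  rw [mem_normalizer_iff]
  intro h
  constructor
  · rintro ⟨x, hx, rfl⟩
    exact ⟨⟨s, hs⟩ * x * ⟨s, hs⟩⁻¹, hN.conj_mem x hx _, rfl⟩
  · rintro ⟨x, hx, hxe⟩
    refine ⟨⟨s, hs⟩⁻¹ * x * ⟨s, hs⟩, ?_, ?_⟩
    · have := hN.conj_mem x hx ⟨s, hs⟩⁻¹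
      simpa using this
    · have h1 : (S.subtype x : G) = s * h * s⁻¹ := hxe
      have h2 : S.subtype (⟨s, hs⟩⁻¹ * x * ⟨s, hs⟩) = s⁻¹ * (S.subtype x : G) * s := by simp
      rw [h2, h1]; group

/-- either some `O_l(S) ≠ 1` with `l` odd, or `C_S(O_2(S)) ≤ O_2(S)` -/
theorem dichotomy [Finite G] (S : Subgroup G) (hS : Group.IsSolvable S) :
    (∃ (l : ℕ) (V : Subgroup G), l.Prime ∧ l ≠ 2 ∧ V ≠ ⊥ ∧ IsPGroup l V ∧
      S ≤ normalizer (V : Set G)) ∨
    (∃ Q : Subgroup G, Q ≤ S ∧ IsPGroup 2 Q ∧ S ≤ normalizer (Q : Set G) ∧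
      ∀ s ∈ S, (∀ t ∈ Q, s * t = t * s) → s ∈ Q) := by
  by_cases h : ∃ l : ℕ, l.Prime ∧ l ≠ 2 ∧ Cfsg.pCore l S ≠ ⊥
  · obtain ⟨l, hl, hl2, hne⟩ := h
    left
    refine ⟨l, (Cfsg.pCore l S).map S.subtype, hl, hl2, ?_,
      (Cfsg.Agent.Lib.Helper1.pCore_isPGroup l).map _, le_normalizer_map_subtype _⟩
    rwa [Ne, Subgroup.map_eq_bot_iff_of_injective _ S.subtype_injective]
  · right
    push Not at h
    have hF : Cfsg.fittingSubgroup S = Cfsg.pCore 2 S := by
      rw [Cfsg.Agent.Lib.Helper1.fittingSubgroup_eq_iSup_pCore]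
      apply le_antisymm
      · refine iSup_le fun p => ?_
        by_cases hp : (p : ℕ) = 2
        · rw [hp]
        · rw [h p p.2 hp]; exact bot_le
      · exact le_iSup (fun p : Nat.Primes => Cfsg.pCore (p : ℕ) S) ⟨2, Nat.prime_two⟩
    have hC := Cfsg.Agent.S0044.result (G := S)
    rw [hF] at hC
    refine ⟨(Cfsg.pCore 2 S).map S.subtype, map_subtype_le _,
      (Cfsg.Agent.Lib.Helper1.pCore_isPGroup 2).map _, le_normalizer_map_subtype _, ?_⟩
    intro s hs hc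
    refine ⟨⟨s, hs⟩, hC ?_, rfl⟩
    rw [mem_centralizer_iff]
    intro t ht
    apply Subtype.ext
    exact (hc t ⟨t, ht, rfl⟩).symm

/-- a subgroup containing a Sylow subgroup of `S` for each prime contains `S` -/
theorem le_of_sylows [Finite G] {S S₁ : Subgroup G}
    (h : ∀ l : ℕ, l.Prime → l ∣ Nat.card S → ∃ R : Sylow l S, (R : Subgroup S).map S.subtype ≤ S₁) :
    S ≤ S₁ := by
  rw [← Subgroup.relIndex_eq_one]
  rw [Nat.eq_one_iff_not_exists_prime_dvd]
  intro l hl hd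
  haveI := Fact.mk hl
  have h1 : l ∣ Nat.card S := hd.trans (Subgroup.relIndex_dvd_card _ _)
  obtain ⟨R, hR⟩ := h l hl h1
  have h2 : (R : Subgroup S) ≤ S₁.subgroupOf S := by
    intro x hx
    exact hR ⟨x, hx, rfl⟩
  exact R.not_dvd_index (hd.trans (Subgroup.index_dvd_of_le h2))

theorem exists_orderOf_of_pgroup [Finite G] {l : ℕ} (hl : l.Prime) {V : Subgroup G} (hV1 : V ≠ ⊥)
    (hV : IsPGroup l V) : ∃ y ∈ V, orderOf y = l := by
  haveI := Fact.mk hl
  have hd : l ∣ Nat.card V := by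
    rcases hV.card_eq_or_dvd with h | h
    · exact absurd (Subgroup.card_eq_one.1 h) hV1
    · exact h
  obtain ⟨y, hy⟩ := exists_prime_orderOf_dvd_card' l hd
  exact ⟨y, y.2, by rw [Subgroup.orderOf_coe]; exact hy⟩

/-- the torus case -/
theorem torus_case [Finite G] {A : Subgroup G} {k c n : ℕ} (hA : IsTorus A k c n)
    (hk : k.Coprime (Nat.card G / k)) {l : ℕ} (hl : l.Prime) (hlk : l ∣ k) {V S : Subgroup G}
    (hV1 : V ≠ ⊥) (hV : IsPGroup l V) (hSV : S ≤ normalizer (V : Set G)) :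
    ∃ A' : Subgroup G, S ≤ normalizer (A' : Set G) ∧ IsCyclic A' ∧ Nat.card A' = k := by
  haveI := Fact.mk hl
  obtain ⟨P, hVP⟩ := hV.exists_le_sylow
  haveI hcP : IsCyclic (P : Subgroup G) := hA.sylow_cyclic hk hlk P
  have hcV : IsCyclic V := Subgroup.isCyclic_of_le hVP
  obtain ⟨y, hyV, hy⟩ := exists_orderOf_of_pgroup hl hV1 hV
  obtain ⟨g, hg⟩ := hA.exists_conj hk hl hlk hy
  have hA' := hA.map_conj g⁻¹
  have hyA' : y ∈ A.map (MulAut.conj g⁻¹).toMonoidHom := by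
    refine ⟨g * y * g⁻¹, hg, ?_⟩
    simp only [MulEquiv.coe_toMonoidHom, MulAut.conj_apply]
    group
  have hy1 : y ≠ 1 := by
    intro h; rw [h, orderOf_one] at hy; exact hl.one_lt.ne hy
  refine ⟨_, ?_, hA'.cyc, hA'.card⟩
  rw [← hA'.norm_eq (zpowers y) (zpowers_le.2 hyA') (by rwa [Ne, zpowers_eq_bot])]
  exact hSV.trans (P3.normalizer_le_of_isCyclic hcV (zpowers_le.2 hyV))

/-- an element of prime order `l ≥ 5` normalizing a group of order `4` centralizes it -/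
theorem comm_of_card_four [Finite G] {Q : Subgroup G} (hQ : Nat.card Q = 4) {s : G}
    (hs : s ∈ normalizer (Q : Set G)) {l : ℕ} (hl : l.Prime) (hl5 : 5 ≤ l) (hso : orderOf s = l) :
    ∀ t ∈ Q, s * t = t * s := by
  intro t ht
  have hmem : ∀ i : ℕ, s ^ i * t * (s ^ i)⁻¹ ∈ Q := by
    intro i
    exact (mem_normalizer_iff.1 (Subgroup.pow_mem _ hs i) t).1 ht
  let f : Fin 5 → Q := fun i => ⟨s ^ (i : ℕ) * t * (s ^ (i : ℕ))⁻¹, hmem i⟩
  haveI : Fintype Q := Fintype.ofFinite Q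
  have hcard : Fintype.card Q < Fintype.card (Fin 5) := by
    rw [← Nat.card_eq_fintype_card, hQ]; simp
  obtain ⟨i, j, hij, hf⟩ := Fintype.exists_ne_map_eq_of_card_lt f hcard
  have hf' : s ^ (i : ℕ) * t * (s ^ (i : ℕ))⁻¹ = s ^ (j : ℕ) * t * (s ^ (j : ℕ))⁻¹ :=
    congrArg Subtype.val hf
  -- `s ^ (i - j)` commutes with `t`
  set d : ℤ := (i : ℕ) - (j : ℕ) with hd
  have hcomm : Commute (s ^ d) t := by
    have h1 : s ^ d = (s ^ (j : ℕ))⁻¹ * s ^ (i : ℕ) := by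
      rw [hd, sub_eq_neg_add, zpow_add, zpow_neg, zpow_natCast, zpow_natCast]
    have h2 : (s ^ (j : ℕ))⁻¹ * (s ^ (i : ℕ) * t * (s ^ (i : ℕ))⁻¹) * s ^ (i : ℕ) =
        (s ^ (j : ℕ))⁻¹ * (s ^ (j : ℕ) * t * (s ^ (j : ℕ))⁻¹) * s ^ (i : ℕ) := by rw [hf']
    have h3 : (s ^ (j : ℕ))⁻¹ * s ^ (i : ℕ) * t = t * ((s ^ (j : ℕ))⁻¹ * s ^ (i : ℕ)) := by
      have e1 : (s ^ (j : ℕ))⁻¹ * (s ^ (i : ℕ) * t * (s ^ (i : ℕ))⁻¹) * s ^ (i : ℕ) =
          (s ^ (j : ℕ))⁻¹ * s ^ (i : ℕ) * t := by group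
      have e2 : (s ^ (j : ℕ))⁻¹ * (s ^ (j : ℕ) * t * (s ^ (j : ℕ))⁻¹) * s ^ (i : ℕ) =
          t * ((s ^ (j : ℕ))⁻¹ * s ^ (i : ℕ)) := by group
      rw [← e1, ← e2, h2]
    rw [h1]; exact h3
  have hi := i.2
  have hj := j.2
  have hne : (i : ℕ) ≠ (j : ℕ) := fun h => hij (Fin.ext h)
  have hcop : IsCoprime d (l : ℤ) := by
    rw [isCoprime_comm]
    rw [Prime.coprime_iff_not_dvd (Nat.prime_iff_prime_int.1 hl)]
    intro hdv
    have h0 : d ≠ 0 := by rw [hd]; omega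
    have h1 : (l : ℤ) ≤ |d| := by
      have := Int.le_of_dvd (abs_pos.2 h0) ((dvd_abs _ _).2 hdv)
      exact this
    have h2 : |d| ≤ 4 := by
      rw [abs_le, hd]; constructor <;> omega
    omega
  obtain ⟨a, b, hab⟩ := hcop
  have hs1 : s = (s ^ d) ^ a := by
    have h1 : s ^ (l : ℤ) = 1 := by rw [zpow_natCast, ← hso]; exact pow_orderOf_eq_one s
    calc s = s ^ (a * d + b * l) := by rw [hab, zpow_one]
      _ = s ^ (a * d) * s ^ (b * l) := zpow_add _ _ _
      _ = (s ^ d) ^ a * (s ^ (l : ℤ)) ^ b := by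
          rw [mul_comm a d, mul_comm b (l : ℤ), zpow_mul, zpow_mul]
      _ = (s ^ d) ^ a := by rw [h1, one_zpow, mul_one]
  rw [hs1]
  exact (hcomm.zpow_left a).eq

end R2361

variable {G : Type u} [Group G] [Finite G] {K : Type v} [Field K] [Fintype K] {m : ℕ} (X : ReeAx G K m)

open R2361

include X in
/-- the case of a normal 3-subgroup -/
theorem R2361.three_case {V S : Subgroup G} (hV1 : V ≠ ⊥) (hV : IsPGroup 3 V)
    (hSV : S ≤ normalizer (V : Set G)) :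
    ∃ P : Sylow 3 G, S ≤ normalizer ((P : Subgroup G) : Set G) := by
  haveI : Fact (Nat.Prime 3) := ⟨Nat.prime_three⟩
  obtain ⟨P, hPU⟩ := exists_sylow_U X
  obtain ⟨P', hVP⟩ := hV.exists_le_sylow
  obtain ⟨g, hg⟩ := MulAction.exists_smul_eq G P P'
  refine ⟨P', fun s hs => ?_⟩
  suffices hsP : s • P' = P' from Sylow.smul_eq_iff_mem_normalizer.1 hsP
  have hmem : ∀ v ∈ V, g⁻¹ * v * g ∈ X.U := by
    intro v hv
    have h1 : v ∈ ((g • P : Sylow 3 G) : Subgroup G) := by rw [hg]; exact hVP hv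
    rw [Sylow.coe_subgroup_smul, Subgroup.mem_pointwise_smul_iff_inv_smul_mem, hPU] at h1
    have h2 : (MulAut.conj g)⁻¹ • v = g⁻¹ * v * g := by
      rw [← map_inv]; simp [MulAut.smul_def]
    rwa [h2] at h1
  obtain ⟨y, hyV, hy1⟩ : ∃ y ∈ V, y ≠ 1 := by
    by_contra hno
    push Not at hno
    exact hV1 ((eq_bot_iff_forall _).2 hno)
  have hu1 : g⁻¹ * y * g ≠ 1 := by
    have := P3.conj_ne_one (g := g⁻¹) hy1
    simpa using this
  have hsy : s * y * s⁻¹ ∈ V := (mem_normalizer_iff.1 (hSV hs) y).1 hyV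
  have hn : g⁻¹ * s * g ∈ normalizer (X.U : Set G) := by
    rw [normalizer_U X, mem_B X]
    apply X.TI
    refine ⟨g⁻¹ * y * g, hmem y hyV, hu1, ?_⟩
    have e : g⁻¹ * s * g * (g⁻¹ * y * g) * (g⁻¹ * s * g)⁻¹ = g⁻¹ * (s * y * s⁻¹) * g := by group
    rw [e]
    exact hmem _ hsy
  have hn' : (g⁻¹ * s * g) • P = P := by
    rw [Sylow.smul_eq_iff_mem_normalizer]
    show g⁻¹ * s * g ∈ normalizer ((P : Subgroup G) : Set G)
    rw [hPU]; exact hn
  calc s • P' = s • (g • P) := by rw [hg]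
    _ = (g * (g⁻¹ * s * g)) • P := by rw [← mul_smul]; congr 1; group
    _ = g • ((g⁻¹ * s * g) • P) := mul_smul _ _ _
    _ = P' := by rw [hn', hg]

theorem R2361.not_four_dvd_card_B : ¬ 4 ∣ Nat.card X.B := by
  rw [card_B X]
  intro h
  have hodd : Nat.Coprime 4 ((3 ^ (2 * m + 1)) ^ 3) := by
    apply Nat.Coprime.pow_right
    apply Nat.Coprime.pow_right
    norm_num
  have h1 : 4 ∣ 3 ^ (2 * m + 1) - 1 := hodd.dvd_of_dvd_mul_left h
  rw [← Arith.two_mul_k0] at h1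
  have h2 : 2 ∣ (3 ^ (2 * m + 1) - 1) / 2 := by omega
  have h3 := Nat.eq_one_of_dvd_coprimes (Arith.cop_6_k0 m) (by norm_num : 2 ∣ 6) h2
  omega

/-- the case `C_S(Q) ≤ Q`, `Q` a 2-group -/
theorem R2361.two_case (hs : Syl2 G X.a) {Q S : Subgroup G} (hQS : Q ≤ S) (hQ : IsPGroup 2 Q)
    (hSQ : S ≤ normalizer (Q : Set G)) (hC : ∀ s ∈ S, (∀ t ∈ Q, s * t = t * s) → s ∈ Q) :
    ∃ P : Sylow 2 G, S ≤ normalizer ((P : Subgroup G) : Set G) := by
  haveI : Fact (Nat.Prime 2) := ⟨Nat.prime_two⟩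
  haveI : Fact (Nat.Prime 3) := ⟨Nat.prime_three⟩
  -- 2-subgroups are abelian
  have hab : ∀ P : Sylow 2 G, ∀ x ∈ P, ∀ y ∈ P, x * y = y * x := by
    intro P x hx y hy
    have h1 := hs.exp P x hx
    have h2 := hs.exp P y hy
    have h3 := hs.exp P (x * y) (mul_mem hx hy)
    have hx' : x⁻¹ = x := inv_eq_of_mul_eq_one_left h1
    have hy' : y⁻¹ = y := inv_eq_of_mul_eq_one_left h2
    have h4 : (x * y)⁻¹ = x * y := inv_eq_of_mul_eq_one_left h3
    rw [← h4, mul_inv_rev, hx', hy']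
  have hab2 : ∀ T : Subgroup G, IsPGroup 2 T → ∀ x ∈ T, ∀ y ∈ T, x * y = y * x := by
    intro T hT x hx y hy
    obtain ⟨P, hP⟩ := hT.exists_le_sylow
    exact hab P x (hP hx) y (hP hy)
  -- every 2-subgroup of `S` containing... lies in `Q`
  have h2Q : ∀ R : Sylow 2 S, (R : Subgroup S).map S.subtype ≤ Q := by
    intro R
    have hQR : Q ≤ (R : Subgroup S).map S.subtype := by
      -- `Q` is a normal 2-subgroup of `S`
      have hn : (Q.subgroupOf S).Normal := by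
        rw [← Subgroup.normalizer_eq_top_iff]
        rw [eq_top_iff]
        intro x _
        rw [mem_normalizer_iff]
        intro y
        have := mem_normalizer_iff.1 (hSQ x.2) y
        simpa [mem_subgroupOf] using this
      have hp : IsPGroup 2 (Q.subgroupOf S) := hQ.comap_of_injective _ (subtype_injective _)
      have := hp.le_sylow_of_normal R
      intro x hx
      exact ⟨⟨x, hQS hx⟩, this (by simpa [mem_subgroupOf] using hx), rfl⟩
    intro x hx
    have hxS : x ∈ S := map_subtype_le _ hx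
    apply hC x hxS
    intro t ht
    exact hab2 _ (R.isPGroup'.map _) x hx t (hQR ht)
  obtain ⟨P₀, hQP₀⟩ := hQ.exists_le_sylow
  have hcard8 := hs.card P₀
  have hQ8 : Nat.card Q ∣ 8 := by
    rw [← hcard8]; exact Subgroup.card_dvd_of_le hQP₀
  by_cases hS2 : IsPGroup 2 S
  · obtain ⟨P, hP⟩ := hS2.exists_le_sylow
    exact ⟨P, hP.trans le_normalizer⟩
  by_cases hQ8' : Nat.card Q = 8
  · have : Q = P₀ := by
      apply Subgroup.eq_of_le_of_card_ge hQP₀
      rw [hQ8']; exact hcard8.le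
    exact ⟨P₀, by rw [← this]; exact hSQ⟩
  -- an element of odd prime order
  have hex : ∃ l : ℕ, l.Prime ∧ l ≠ 2 ∧ l ∣ Nat.card S := by
    by_contra hno
    push Not at hno
    apply hS2
    have hpos : Nat.card S ≠ 0 := Nat.card_pos.ne'
    apply IsPGroup.of_card (n := (Nat.card S).primeFactorsList.length)
    apply Nat.eq_prime_pow_of_unique_prime_dvd hpos
    intro l hl hd
    by_contra h2
    exact hno l hl h2 hd
  -- `|Q| = 4`
  have hQ4 : Nat.card Q = 4 := by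
    obtain ⟨l, hl, hl2, hld⟩ := hex
    haveI := Fact.mk hl
    obtain ⟨s, hso⟩ := exists_prime_orderOf_dvd_card' l hld
    have hso' : orderOf (s : G) = l := by rw [Subgroup.orderOf_coe]; exact hso
    have hsQ : (s : G) ∉ Q := by
      intro h
      obtain ⟨k, hk⟩ := hQ ⟨s, h⟩
      have h1 : (s : G) ^ 2 ^ k = 1 := congrArg Subtype.val hk
      have h2 : l ∣ 2 ^ k := by rw [← hso']; exact orderOf_dvd_of_pow_eq_one h1
      exact hl2 ((Nat.prime_dvd_prime_iff_eq hl Nat.prime_two).1 (hl.dvd_of_dvd_pow h2))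
    have hdiv : Nat.card Q ∈ Nat.divisors 8 := by simp [hQ8]
    have h8 : Nat.divisors 8 = {1, 2, 4, 8} := by decide
    rw [h8] at hdiv
    simp only [Finset.mem_insert, Finset.mem_singleton] at hdiv
    rcases hdiv with h | h | h | h
    · exfalso
      apply hsQ
      apply hC s s.2
      intro t ht
      have : Q = ⊥ := Subgroup.card_eq_one.1 h
      rw [this, mem_bot] at ht
      rw [ht]; simp
    · exfalso
      apply hsQ
      apply hC s s.2
      intro t ht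
      by_cases ht1 : t = 1
      · rw [ht1]; simp
      · -- the conjugate of `t` is a nontrivial element of `Q`, which has only one
        have hc : (s : G) * t * (s : G)⁻¹ ∈ Q := (mem_normalizer_iff.1 (hSQ s.2) t).1 ht
        have hc1 : (s : G) * t * (s : G)⁻¹ ≠ 1 := P3.conj_ne_one ht1
        have huniq : (s : G) * t * (s : G)⁻¹ = t := by
          by_contra hne
          have h3 : 3 ≤ Nat.card Q := by
            classical
            haveI : Fintype Q := Fintype.ofFinite Q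
            have hc3 : ({(1 : Q), ⟨t, ht⟩, ⟨(s : G) * t * (s : G)⁻¹, hc⟩} : Finset Q).card = 3 := by
              rw [Finset.card_eq_three]
              refine ⟨1, ⟨t, ht⟩, ⟨(s : G) * t * (s : G)⁻¹, hc⟩, ?_, ?_, ?_, rfl⟩
              · intro h; exact ht1 (congrArg Subtype.val h).symm
              · intro h; exact hc1 (congrArg Subtype.val h).symm
              · intro h; exact hne (congrArg Subtype.val h).symm
            have := Finset.card_le_univ ({(1 : Q), ⟨t, ht⟩, ⟨(s : G) * t * (s : G)⁻¹, hc⟩} : Finset Q)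
            rw [hc3, ← Nat.card_eq_fintype_card] at this
            exact this
          omega
        calc (s : G) * t = ((s : G) * t * (s : G)⁻¹) * s := by group
          _ = t * s := by rw [huniq]
    · exact h
    · exact absurd h hQ8'
  -- the primes dividing `|S|` are 2 and 3
  have hprimes : ∀ l : ℕ, l.Prime → l ∣ Nat.card S → l = 2 ∨ l = 3 := by
    intro l hl hld
    by_contra hno
    push Not at hno
    haveI := Fact.mk hl
    obtain ⟨s, hso⟩ := exists_prime_orderOf_dvd_card' l hld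
    have hso' : orderOf (s : G) = l := by rw [Subgroup.orderOf_coe]; exact hso
    have hl5 : 5 ≤ l := by
      have h2 := hl.two_le
      by_contra h5
      have : l = 4 := by omega
      rw [this] at hl
      exact absurd hl (by norm_num)
    have hsQ := hC s s.2 (comm_of_card_four hQ4 (hSQ s.2) hl hl5 hso')
    obtain ⟨k, hk⟩ := hQ ⟨s, hsQ⟩
    have h1 : (s : G) ^ 2 ^ k = 1 := congrArg Subtype.val hk
    have h2 : l ∣ 2 ^ k := by rw [← hso']; exact orderOf_dvd_of_pow_eq_one h1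
    exact hno.1 ((Nat.prime_dvd_prime_iff_eq hl Nat.prime_two).1 (hl.dvd_of_dvd_pow h2))
  -- `3 ∤ |C_G(Q)|`
  have h3C : ¬ 3 ∣ Nat.card ↥(centralizer (Q : Set G)) := by
    intro h3
    obtain ⟨u, hu⟩ := exists_prime_orderOf_dvd_card' 3 h3
    have hu' : orderOf (u : G) = 3 := by rw [Subgroup.orderOf_coe]; exact hu
    have hu1 : (u : G) ≠ 1 := by
      intro h; rw [h, orderOf_one] at hu'; omega
    have hu3 : (u : G) ^ 3 ^ 1 = 1 := by rw [pow_one, ← hu']; exact pow_orderOf_eq_one _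
    obtain ⟨g, hg⟩ := exists_conj_mem_U X hu3
    have hle : Q.map (MulAut.conj g).toMonoidHom ≤ X.B := by
      rintro _ ⟨t, ht, rfl⟩
      apply cent_three X hg (P3.conj_ne_one hu1)
      rw [mem_centralizer_singleton_iff]
      simp only [MulEquiv.coe_toMonoidHom, MulAut.conj_apply]
      apply P3.conj_comm
      exact (mem_centralizer_iff.1 u.2 t ht)
    have hc := Subgroup.card_dvd_of_le hle
    rw [Subgroup.card_map_of_injective (MulAut.conj g).injective, hQ4] at hc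
    exact R2361.not_four_dvd_card_B X hc
  -- a Sylow 3-subgroup of `S` normalizes a Sylow 2-subgroup of `C_G(Q)`
  obtain ⟨T⟩ : Nonempty (Sylow 3 S) := inferInstance
  have hTS : (T : Subgroup S).map S.subtype ≤ S := map_subtype_le _
  have hTQ : (T : Subgroup S).map S.subtype ≤ normalizer (Q : Set G) := hTS.trans hSQ
  have hTC : (T : Subgroup S).map S.subtype ≤
      normalizer ((centralizer (Q : Set G) : Subgroup G) : Set G) := by
    intro x hx
    have hxQ := hTQ hx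
    have key : ∀ z ∈ normalizer (Q : Set G), ∀ c ∈ centralizer (Q : Set G),
        z * c * z⁻¹ ∈ centralizer (Q : Set G) := by
      intro z hz c hc
      rw [mem_centralizer_iff]
      intro t ht
      have h1 : z⁻¹ * t * z⁻¹⁻¹ ∈ Q := (mem_normalizer_iff.1 (inv_mem hz) t).1 ht
      have h2 := mem_centralizer_iff.1 hc _ h1
      have e1 : t * (z * c * z⁻¹) = z * ((z⁻¹ * t * z⁻¹⁻¹) * c) * z⁻¹ := by group
      have e2 : z * c * z⁻¹ * t = z * (c * (z⁻¹ * t * z⁻¹⁻¹)) * z⁻¹ := by group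
      rw [e1, e2, h2]
    rw [mem_normalizer_iff]
    intro c
    refine ⟨key x hxQ c, fun h => ?_⟩
    have := key x⁻¹ (inv_mem hxQ) _ h
    have e : x⁻¹ * (x * c * x⁻¹) * x⁻¹⁻¹ = c := by group
    rwa [e] at this
  have hQC : Q ≤ centralizer (Q : Set G) := by
    intro x hx
    rw [mem_centralizer_iff]
    intro t ht
    exact hab2 Q hQ t ht x hx
  obtain ⟨P, hP, hTP, hQP⟩ := Cfsg.Agent.Lib.Helper22.exists_invariant_isSylowIn_ge
    ((T : Subgroup S).map S.subtype) (centralizer (Q : Set G)) (T.isPGroup'.map _) h3C hTC 2 Q hQ hQC hTQ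
  obtain ⟨hPC, hP2, hPmax⟩ := Cfsg.Agent.Lib.Helper22.isSylowIn_iff.1 hP
  obtain ⟨P₁, hPP₁⟩ := hP2.exists_le_sylow
  have hP₁ : (P₁ : Subgroup G) = P := by
    apply hPmax _ P₁.isPGroup' _ hPP₁
    intro x hx
    rw [mem_centralizer_iff]
    intro t ht
    exact hab P₁ t (hPP₁ (hQP ht)) x hx
  refine ⟨P₁, ?_⟩
  rw [hP₁]
  apply le_of_sylows
  intro l hl hld
  rcases hprimes l hl hld with rfl | rfl
  · obtain ⟨R⟩ : Nonempty (Sylow 2 S) := inferInstance
    exact ⟨R, ((h2Q R).trans hQP).trans le_normalizer⟩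
  · exact ⟨T, hTP⟩

/-- [R2361] -/
theorem row2361 (hs : Syl2 G X.a) (h0 : Tor0 G m) (h1 : Tor1 G m) (h2 : Tor2 G m) (h3 : Tor3 G m)
    (S : Subgroup G) (hS : Group.IsSolvable S) :
    ∃ A : Subgroup G, S ≤ Subgroup.normalizer (A : Set G) ∧
      ((∃ P : Sylow 2 G, A = P) ∨
       (∃ P : Sylow 3 G, A = P) ∨
       (IsCyclic A ∧ (Nat.card A = (3 ^ (2 * m + 1) - 1) / 2 ∨ Nat.card A = (3 ^ (2 * m + 1) + 1) / 4 ∨
          Nat.card A = 3 ^ (2 * m + 1) - 3 ^ (m + 1) + 1 ∨ Nat.card A = 3 ^ (2 * m + 1) + 3 ^ (m + 1) + 1))) := by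
  rcases dichotomy S hS with ⟨l, V, hl, hl2, hV1, hV, hSV⟩ | ⟨Q, hQS, hQ, hSQ, hC⟩
  · obtain ⟨y, hyV, hy⟩ := exists_orderOf_of_pgroup hl hV1 hV
    have hlG : l ∣ (3 ^ (2 * m + 1)) ^ 3 * (3 ^ (2 * m + 1) - 1) * ((3 ^ (2 * m + 1)) ^ 3 + 1) := by
      rw [← X.card_G, ← hy]; exact orderOf_dvd_natCard y
    rcases Arith.prime_cases m hl hlG with rfl | rfl | hk | hk | hk | hk
    · exact absurd rfl hl2
    · obtain ⟨P, hP⟩ := R2361.three_case X hV1 hV hSV
      exact ⟨P, hP, Or.inr (Or.inl ⟨P, rfl⟩)⟩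
    · obtain ⟨A, hA, -⟩ := h0
      obtain ⟨A', h1', h2', h3'⟩ := torus_case hA (by rw [X.card_G]; exact Arith.hall_k0 m) hl hk hV1 hV hSV
      exact ⟨A', h1', Or.inr (Or.inr ⟨h2', Or.inl h3'⟩)⟩
    · obtain ⟨A, hA, -⟩ := h1
      obtain ⟨A', h1', h2', h3'⟩ := torus_case hA (by rw [X.card_G]; exact Arith.hall_k1 m) hl hk hV1 hV hSV
      exact ⟨A', h1', Or.inr (Or.inr ⟨h2', Or.inr (Or.inl h3')⟩)⟩
    · obtain ⟨A, hA⟩ := h2
      obtain ⟨A', h1', h2', h3'⟩ := torus_case hA (by rw [X.card_G]; exact Arith.hall_k2 m) hl hk hV1 hV hSV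
      exact ⟨A', h1', Or.inr (Or.inr ⟨h2', Or.inr (Or.inr (Or.inl h3'))⟩)⟩
    · obtain ⟨A, hA⟩ := h3
      obtain ⟨A', h1', h2', h3'⟩ := torus_case hA (by rw [X.card_G]; exact Arith.hall_k3 m) hl hk hV1 hV hSV
      exact ⟨A', h1', Or.inr (Or.inr ⟨h2', Or.inr (Or.inr (Or.inr h3'))⟩)⟩
  · obtain ⟨P, hP⟩ := R2361.two_case X hs hQS hQ hSQ hC
    exact ⟨P, hP, Or.inl ⟨P, rfl⟩⟩

end Cfsg.Agent.Lib.Lead.ReeAbs
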